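import Cfsg.Agent.S4181

/-! # Fixed points and orbits of a Sylow subgroup -/

set_option autoImplicit false

namespace Cfsg.Lib.Fpr

open MulAction Subgroup Finset

variable {G Ω : Type*} [Group G] [Finite G] [MulAction G Ω] [Finite Ω] {p : ℕ} [hp : Fact p.Prime]

/-- orbits of a `p`-group that are not fixed points have at least `p` points -/
theorem orb_le (h : IsPGroup p G) :
    p * Nat.card (orbitRel.Quotient G Ω) ≤ Nat.card Ω + (p - 1) * Nat.card (fixedPoints G Ω) := by
  classical
  have := Fintype.ofFinite Ω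
  have := Fintype.ofFinite (orbitRel.Quotient G Ω)
  have e : Nat.card Ω + (p - 1) * Nat.card (fixedPoints G Ω) = ∑ x : Ω, (1 + if x ∈ fixedPoints G Ω then p - 1 else 0) := by
    rw [sum_add_distrib, ← sum_filter, sum_const, sum_const, Nat.card_eq_fintype_card, Nat.card_eq_fintype_card,
      Fintype.card_subtype, smul_eq_mul, smul_eq_mul, mul_one, mul_comm, card_univ]
  rw [e, ← sum_fiberwise univ (fun x => (Quotient.mk _ x : orbitRel.Quotient G Ω)), Nat.card_eq_fintype_card, mul_comm,
    ← card_univ, ← smul_eq_mul]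
  refine card_nsmul_le_sum _ _ _ fun w _ => ?_
  induction w using Quotient.inductionOn with
  | h a =>
    by_cases ha : a ∈ fixedPoints G Ω
    · refine le_trans ?_ (single_le_sum (a := a) (fun _ _ => Nat.zero_le _) (by simp))
      have := hp.out.pos
      rw [if_pos ha]; omega
    · obtain ⟨k, hk⟩ := h.card_orbit a
      have h1 : p ≤ Nat.card (orbit G a) := by
        rw [hk]
        refine Nat.le_self_pow (fun e => ha ?_) p
        rw [e, pow_zero] at hk
        have := Fintype.ofFinite (orbit G a)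
        exact mem_fixedPoints_iff_card_orbit_eq_one.2 (by rw [← Nat.card_eq_fintype_card, hk])
      refine h1.trans (le_trans ?_ (card_nsmul_le_sum _ _ 1 fun _ _ => Nat.le_add_right _ _))
      rw [smul_eq_mul, mul_one, Nat.card_coe_set_eq, ← Set.ncard_coe_finset]
      exact Set.ncard_le_ncard (fun x hx => by simpa using Quotient.sound hx) (Set.toFinite _)

/-- a group generated by `p`-elements without fixed points -/
theorem fix_le (hg : closure {g : G | ∃ k : ℕ, orderOf g = p ^ k} = ⊤) (h : ∀ a : Ω, stabilizer G a ≠ ⊤) (P : Sylow p G) :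
    (2 * p - 1) * Nat.card (fixedPoints P Ω) ≤ (p - 1) * Nat.card Ω := by
  classical
  have := Fintype.ofFinite Ω
  have := Fintype.ofFinite (Sylow p G)
  have e1 : ∀ Q : Sylow p G, #{a : Ω | (Q : Subgroup G) ≤ stabilizer G a} = Nat.card (fixedPoints P Ω) := fun Q => by
    obtain ⟨g, rfl⟩ := exists_smul_eq G P Q
    rw [Nat.card_eq_fintype_card, Fintype.card_subtype]
    refine (card_bij (fun a _ => g • a) (fun a ha => ?_) (fun _ _ _ _ e => smul_left_cancel g e) fun b hb => ⟨g⁻¹ • b, ?_, by simp⟩).symm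
    · simp only [mem_filter, mem_univ, true_and] at ha ⊢
      rintro _ ⟨x, hx, rfl⟩
      have : x • a = a := ha ⟨x, hx⟩
      simp [mem_stabilizer_iff, mul_smul, this]
    · simp only [mem_filter, mem_univ, true_and] at hb ⊢
      intro x
      have : (g * x * g⁻¹) • b = b := hb ⟨x, x.2, rfl⟩
      change (x : G) • g⁻¹ • b = _
      rw [eq_inv_smul_iff, ← mul_smul, ← mul_smul, this]
  have e2 : ∀ a : Ω, (2 * p - 1) * #{Q : Sylow p G | (Q : Subgroup G) ≤ stabilizer G a} ≤ (p - 1) * Nat.card (Sylow p G) :=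
    fun a => by
    rcases (univ.filter fun Q : Sylow p G => (Q : Subgroup G) ≤ stabilizer G a).eq_empty_or_nonempty with e | ⟨Q, hQ⟩
    · simp [e]
    · refine le_trans (Nat.mul_le_mul_left _ ?_) (Agent.S4181.result p hg _ (h a) Q (mem_filter.1 hQ).2)
      rw [← Fintype.card_subtype, ← Nat.card_eq_fintype_card]
      exact Nat.card_le_card_of_injective (fun R => R.1.subtype R.2) fun R S e => Subtype.ext (Sylow.subtype_injective e)
  have e3 := sum_card_bipartiteAbove_eq_sum_card_bipartiteBelow (s := (univ : Finset (Sylow p G))) (t := (univ : Finset Ω))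
    fun (Q : Sylow p G) (a : Ω) => (Q : Subgroup G) ≤ stabilizer G a
  simp only [bipartiteAbove, bipartiteBelow, e1, sum_const, card_univ, smul_eq_mul] at e3
  refine Nat.le_of_mul_le_mul_left (c := Fintype.card (Sylow p G)) ?_ Fintype.card_pos
  rw [mul_left_comm, e3, mul_sum]
  refine (sum_le_card_nsmul _ _ _ fun a _ => e2 a).trans_eq ?_
  simp only [card_univ, smul_eq_mul, Nat.card_eq_fintype_card]
  ring

omit [Finite G] [Finite Ω] in
theorem gen_closure : closure {g : closure {g : G | ∃ k : ℕ, orderOf g = p ^ k} | ∃ k : ℕ, orderOf g = p ^ k} = ⊤ := by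
  rw [← closure_preimage_eq_top]
  congr 1
  ext g
  simp

omit [Finite G] [Finite Ω] in
theorem normal_closure : (closure {g : G | ∃ k : ℕ, orderOf g = p ^ k}).Normal :=
  ⟨fun _ hn g => by
    have := mem_map_of_mem (MulAut.conj g).toMonoidHom hn
    rw [MonoidHom.map_closure] at this
    refine closure_mono ?_ this
    rintro _ ⟨x, ⟨k, hk⟩, rfl⟩
    exact ⟨k, ((MulAut.conj g).orderOf_eq x).trans hk⟩⟩

/-- the faithful transitive case -/
theorem fix_le' [FaithfulSMul G Ω] [IsPretransitive G Ω] (h : p ∣ Nat.card G) (P : Sylow p G) :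
    (2 * p - 1) * Nat.card (fixedPoints P Ω) ≤ (p - 1) * Nat.card Ω := by
  set N := closure {g : G | ∃ k : ℕ, orderOf g = p ^ k}
  have hP : (P : Subgroup G) ≤ N := fun x hx => subset_closure (by
    obtain ⟨k, hk⟩ := IsPGroup.iff_orderOf.1 P.isPGroup' ⟨x, hx⟩
    exact ⟨k, (orderOf_mk x hx).symm.trans hk⟩)
  have := fix_le (Ω := Ω) gen_closure (fun a e => ?_) (P.subtype hP)
  · refine le_trans (Nat.mul_le_mul_left _ ?_) this
    exact Set.ncard_le_ncard (fun a ha x => ha ⟨x.1.1, x.2⟩) (Set.toFinite _)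
  · obtain ⟨x, hx⟩ := exists_prime_orderOf_dvd_card' p h
    have m : x ∈ N := subset_closure ⟨1, by rw [hx, pow_one]⟩
    have : x = 1 := FaithfulSMul.eq_of_smul_eq_smul (α := Ω) fun b => by
      obtain ⟨g, rfl⟩ := exists_smul_eq G a b
      have : (g⁻¹ * x * g⁻¹⁻¹) • a = a := e.ge (mem_top (⟨_, normal_closure.conj_mem x m g⁻¹⟩ : N))
      rwa [inv_inv, mul_smul, mul_smul, inv_smul_eq_iff, ← one_smul G (g • a), smul_smul x, mul_one] at this
    rw [this, orderOf_one] at hx
    exact hp.out.one_lt.ne hx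

end Cfsg.Lib.Fpr
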